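import Mathlib

/-!
# Sylow 2-subgroups of `PGL(2, q)` for a Mersenne prime `q` meet pairwise
-/

set_option autoImplicit false
open scoped Pointwise

namespace CfsgLib.PGLTwo

open Matrix

variable {q : ℕ} [Fact q.Prime]

local notation "M2" => Matrix (Fin 2) (Fin 2) (ZMod q)
local notation "G2" => GL (Fin 2) (ZMod q)

def J0 (q : ℕ) : Matrix (Fin 2) (Fin 2) (ZMod q) := !![0, -1; 1, 0]

def N0 (q : ℕ) [Fact q.Prime] : Subgroup (GL (Fin 2) (ZMod q)) where
  carrier := {M | (M : Matrix (Fin 2) (Fin 2) (ZMod q)) * J0 q = J0 q * (M : Matrix (Fin 2) (Fin 2) (ZMod q)) ∨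
    (M : Matrix (Fin 2) (Fin 2) (ZMod q)) * J0 q = -(J0 q * (M : Matrix (Fin 2) (Fin 2) (ZMod q)))}
  one_mem' := Or.inl (by simp)
  mul_mem' := fun {a b} ha hb => by
    simp only [Set.mem_setOf_eq, Units.val_mul] at ha hb ⊢
    rw [mul_assoc]
    rcases hb with hb | hb <;> rcases ha with ha | ha <;>
      simp only [hb, mul_neg, ← mul_assoc, ha, neg_mul, neg_neg, true_or, or_true]
  inv_mem' := fun {a} ha => by
    simp only [Set.mem_setOf_eq] at ha ⊢
    rcases ha with ha | ha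
    · left
      exact (Commute.units_inv_left ha).eq
    · right
      have h1 : ((a⁻¹ : GL (Fin 2) (ZMod q)) : Matrix (Fin 2) (Fin 2) (ZMod q)) * ((a : Matrix (Fin 2) (Fin 2) (ZMod q)) * J0 q) *
          ((a⁻¹ : GL (Fin 2) (ZMod q)) : Matrix (Fin 2) (Fin 2) (ZMod q)) = J0 q * ((a⁻¹ : GL (Fin 2) (ZMod q)) : Matrix (Fin 2) (Fin 2) (ZMod q)) := by
        rw [← mul_assoc, Units.inv_mul, one_mul]
      rw [ha, mul_neg, neg_mul, mul_assoc, mul_assoc, Units.mul_inv, mul_one] at h1
      rw [← h1, neg_neg]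

theorem mem_N0 (M : G2) : M ∈ N0 q ↔ (M : M2) * J0 q = J0 q * (M : M2) ∨ (M : M2) * J0 q = -(J0 q * (M : M2)) :=
  Iff.rfl

theorem scalar_mem_center {M : G2} {c : ZMod q} (h : (M : M2) = c • (1 : M2)) : M ∈ Subgroup.center G2 := by
  rw [Subgroup.mem_center_iff]
  intro g
  apply Units.ext
  rw [Units.val_mul, Units.val_mul, h, Matrix.smul_mul, Matrix.mul_smul, one_mul, mul_one]

theorem pow_scalar {k : ℕ} (hk : q + 1 = 2 ^ k) (hq : 7 ≤ q) (M : G2) (hM : M ∈ N0 q) :
    ∃ c : ZMod q, ((M ^ (2 ^ k) : G2) : M2) = c • (1 : M2) := by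
  have hq2 : q % 2 = 1 := by
    rcases Nat.eq_zero_or_pos k with rfl | hk0
    · omega
    · obtain ⟨j, rfl⟩ := Nat.exists_eq_succ_of_ne_zero hk0.ne'
      omega
  have hk2 : 2 ≤ k := by
    by_contra h
    interval_cases k <;> omega
  have hq4 : q % 4 = 3 := by
    obtain ⟨j, rfl⟩ : ∃ j, k = j + 2 := ⟨k - 2, by omega⟩
    rw [pow_add] at hk
    omega
  haveI : NeZero (2 : ZMod q) := ⟨by
    intro h
    have : q ∣ 2 := (CharP.cast_eq_zero_iff (ZMod q) q 2).mp (by exact_mod_cast h)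
    exact absurd (Nat.le_of_dvd (by norm_num) this) (by omega)⟩
  set a := (M : M2) 0 0
  set b := (M : M2) 1 0
  rcases hM with h | h
  · have h1 := congrFun (congrFun h 0) 0
    have h2 := congrFun (congrFun h 0) 1
    simp [J0, Matrix.mul_apply, Fin.sum_univ_two, Matrix.vecMul, dotProduct] at h1 h2
    have hMe : (M : M2) = a • (1 : M2) + b • J0 q := by
      ext i j
      fin_cases i <;> fin_cases j <;> simp [J0, a, b] <;>
        first
        | linear_combination h1
        | linear_combination h2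
        | linear_combination -h1
        | linear_combination -h2
    refine ⟨a * a + b * b, ?_⟩
    rw [Units.val_pow_eq_pow_val, ← hk, pow_succ]
    have hJ2 : J0 q * J0 q = -1 := by
      ext i j; fin_cases i <;> fin_cases j <;> simp [J0, Matrix.mul_apply, Fin.sum_univ_two, Matrix.vecMul, dotProduct]
    have hJq : J0 q ^ q = -J0 q := by
      obtain ⟨j, hj⟩ : ∃ j, q = 2 * (2 * j + 1) + 1 := ⟨q / 4, by omega⟩
      have h' : J0 q ^ (2 * (2 * j + 1) + 1) = -J0 q := by
        rw [pow_succ, pow_mul, sq, hJ2, Odd.neg_one_pow ⟨j, rfl⟩, neg_one_mul]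
      rwa [← hj] at h'
    have hpow : (M : M2) ^ q = a • (1 : M2) - b • J0 q := by
      rw [hMe, add_pow_char_of_commute q ((Commute.one_left _).smul_left a |>.smul_right b), smul_pow, smul_pow, one_pow, hJq,
        ZMod.pow_card, ZMod.pow_card, smul_neg, sub_eq_add_neg]
    rw [hpow, hMe, sub_mul, mul_add, mul_add, Matrix.smul_mul, Matrix.smul_mul, Matrix.smul_mul, Matrix.smul_mul,
      Matrix.mul_smul, Matrix.mul_smul, Matrix.mul_smul, Matrix.mul_smul, one_mul, one_mul, mul_one, hJ2]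
    module
  · have h1 := congrFun (congrFun h 0) 0
    have h2 := congrFun (congrFun h 0) 1
    simp [J0, Matrix.mul_apply, Fin.sum_univ_two, Matrix.vecMul, dotProduct] at h1 h2
    have hsq : (M : M2) ^ 2 = (a * a + b * b) • (1 : M2) := by
      ext i j
      rw [sq]
      fin_cases i <;> fin_cases j <;> simp [a, b, Matrix.mul_apply, Fin.sum_univ_two, h1, ← h2] <;> ring
    obtain ⟨j, rfl⟩ : ∃ j, k = j + 1 := ⟨k - 1, by omega⟩
    exact ⟨(a * a + b * b) ^ (2 ^ j), by rw [Units.val_pow_eq_pow_val, pow_succ', pow_mul, hsq, smul_pow, one_pow]⟩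

theorem meet {k : ℕ} (hk : q + 1 = 2 ^ k) (hq : 7 ≤ q)
    (H : Sylow 2 (G2 ⧸ Subgroup.center G2)) (x : G2 ⧸ Subgroup.center G2) :
    (H : Subgroup (G2 ⧸ Subgroup.center G2)) ⊓ MulAut.conj x • (H : Subgroup (G2 ⧸ Subgroup.center G2)) ≠ ⊥ := by
  classical
  haveI : Fact (Nat.Prime 2) := ⟨Nat.prime_two⟩
  set K := (N0 q).map (QuotientGroup.mk' (Subgroup.center G2)) with hK
  have hKp : IsPGroup 2 K := by
    rintro ⟨y, M, hM, rfl⟩
    obtain ⟨c, hc⟩ := pow_scalar hk hq M hM
    refine ⟨k, Subtype.ext ?_⟩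
    rw [SubmonoidClass.coe_pow, ← map_pow, OneMemClass.coe_one, QuotientGroup.mk'_apply, QuotientGroup.eq_one_iff]
    exact scalar_mem_center hc
  obtain ⟨P, hP⟩ := hKp.exists_le_sylow
  obtain ⟨c, rfl⟩ := MulAction.exists_smul_eq (G2 ⧸ Subgroup.center G2) P H
  obtain ⟨g, hg⟩ := QuotientGroup.mk'_surjective (Subgroup.center G2) (c⁻¹ * x * c)
  set Z : M2 := (g : M2) * J0 q * ((g⁻¹ : G2) : M2) with hZ
  obtain ⟨a, b, hab, hlin⟩ : ∃ a b : ZMod q, (a ≠ 0 ∨ b ≠ 0) ∧ a * (2 * Z 0 0) + b * (Z 0 1 + Z 1 0) = 0 := by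
    by_cases h : Z 0 1 + Z 1 0 = 0
    · exact ⟨0, 1, Or.inr one_ne_zero, by rw [h]; ring⟩
    · exact ⟨Z 0 1 + Z 1 0, -(2 * Z 0 0), Or.inl h, by ring⟩
  have hJtr : (J0 q).trace = 0 := by simp [J0, Matrix.trace_fin_two]
  have htr : Z 1 1 = -Z 0 0 := by
    have : Z.trace = 0 := by
      rw [hZ, Matrix.trace_mul_cycle, Units.inv_mul, one_mul, hJtr]
    rw [Matrix.trace_fin_two] at this
    linear_combination this
  have hns : ∀ y : ZMod q, y * y ≠ -1 := by
    intro y hy
    have h4 : q % 4 = 3 := by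
      have hk2 : 2 ≤ k := by
        by_contra h
        interval_cases k <;> omega
      obtain ⟨j, rfl⟩ : ∃ j, k = j + 2 := ⟨k - 2, by omega⟩
      rw [pow_add] at hk
      omega
    exact ZMod.exists_sq_eq_neg_one_iff.mp ⟨y, hy.symm⟩ h4
  have hab2 : a * a + b * b ≠ 0 := by
    intro h
    rcases eq_or_ne a 0 with ha | ha
    · rw [ha, mul_zero, zero_add] at h
      exact hab.elim (fun h' => h' ha) (fun h' => h' (mul_self_eq_zero.mp h))
    · refine hns (b / a) ?_
      field_simp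
      linear_combination h
  set Wm : M2 := !![a, b; b, -a] with hWm
  have hWd : Wm.det ≠ 0 := by
    rw [hWm, Matrix.det_fin_two]
    simp only [Matrix.of_apply, Matrix.cons_val', Matrix.cons_val_zero, Matrix.cons_val_one, Matrix.cons_val_fin_one]
    intro h
    exact hab2 (by linear_combination -h)
  set W : G2 := Matrix.GeneralLinearGroup.mkOfDetNeZero Wm hWd with hW
  have hWc : (W : M2) = Wm := rfl
  have hW0 : W ∈ N0 q := by
    right
    rw [hWc]
    ext i j; fin_cases i <;> fin_cases j <;> simp [hWm, J0, Matrix.mul_apply, Fin.sum_univ_two, Matrix.vecMul, dotProduct]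
  have hWZ : (W : M2) * Z = -(Z * (W : M2)) := by
    rw [hWc]
    ext i j
    fin_cases i <;> fin_cases j <;> simp [hWm, Matrix.mul_apply, Fin.sum_univ_two, Matrix.vecMul, dotProduct, htr] <;>
      first
      | linear_combination hlin
      | linear_combination -hlin
      | ring
  have hW1 : g⁻¹ * W * g ∈ N0 q := by
    right
    have e1 : J0 q = ((g⁻¹ : G2) : M2) * Z * (g : M2) := by
      rw [hZ, mul_assoc, mul_assoc ((g : M2) * J0 q), Units.inv_mul, mul_one, ← mul_assoc, Units.inv_mul, one_mul]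
    rw [Units.val_mul, Units.val_mul, e1]
    calc _ = ((g⁻¹ : G2) : M2) * ((W : M2) * Z) * (g : M2) := by
          simp only [mul_assoc, Units.mul_inv_cancel_left]
      _ = _ := by
          rw [hWZ]
          simp only [mul_neg, neg_mul, mul_assoc, Units.mul_inv_cancel_left]
  have hWne : QuotientGroup.mk' (Subgroup.center G2) W ≠ 1 := by
    rw [QuotientGroup.mk'_apply, Ne, QuotientGroup.eq_one_iff, Subgroup.mem_center_iff]
    intro h
    have hu : IsUnit (!![0, -1; 1, 0] : M2) := by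
      rw [Matrix.isUnit_iff_isUnit_det, Matrix.det_fin_two]; simp
    have h1 := congrArg Units.val (h hu.unit)
    rw [Units.val_mul, Units.val_mul, IsUnit.unit_spec, hWc, hWm] at h1
    have h00 := congrFun (congrFun h1 0) 0
    have h01 := congrFun (congrFun h1 0) 1
    simp [Matrix.mul_apply, Fin.sum_univ_two, Matrix.vecMul, dotProduct] at h00 h01
    have h2 : (2 : ZMod q) ≠ 0 := by
      intro h2
      have : q ∣ 2 := (CharP.cast_eq_zero_iff (ZMod q) q 2).mp (by exact_mod_cast h2)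
      exact absurd (Nat.le_of_dvd (by norm_num) this) (by omega)
    have hb : b = 0 := by
      have : (2 : ZMod q) * b = 0 := by linear_combination -h00
      exact (mul_eq_zero.mp this).resolve_left h2
    have ha : a = 0 := by
      have : (2 : ZMod q) * a = 0 := by first | linear_combination h01 | linear_combination -h01
      exact (mul_eq_zero.mp this).resolve_left h2
    exact hab.elim (fun h' => h' ha) (fun h' => h' hb)
  intro hbot
  apply hWne
  set w := QuotientGroup.mk' (Subgroup.center G2) W with hw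
  have hwP : w ∈ (P : Subgroup (G2 ⧸ Subgroup.center G2)) := hP ⟨W, hW0, rfl⟩
  have hwP' : (c⁻¹ * x * c)⁻¹ * w * (c⁻¹ * x * c) ∈ (P : Subgroup (G2 ⧸ Subgroup.center G2)) := by
    refine hP ⟨g⁻¹ * W * g, hW1, ?_⟩
    rw [map_mul, map_mul, map_inv, hg]
  have hm1 : c * w * c⁻¹ ∈ ((c • P : Sylow 2 _) : Subgroup (G2 ⧸ Subgroup.center G2)) := by
    rw [Sylow.smul_def, Sylow.pointwise_smul_def, Subgroup.mem_pointwise_smul_iff_inv_smul_mem]
    simpa [MulAut.smul_def, MulAut.conj_apply, mul_assoc] using hwP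
  have hm2 : c * w * c⁻¹ ∈ MulAut.conj x • ((c • P : Sylow 2 _) : Subgroup (G2 ⧸ Subgroup.center G2)) := by
    rw [Sylow.smul_def, Sylow.pointwise_smul_def, Subgroup.mem_pointwise_smul_iff_inv_smul_mem,
      Subgroup.mem_pointwise_smul_iff_inv_smul_mem]
    simpa [MulAut.smul_def, MulAut.conj_apply, mul_assoc] using hwP'
  have h1 := Subgroup.mem_bot.mp (hbot ▸ Subgroup.mem_inf.mpr ⟨hm1, hm2⟩)
  rwa [conj_eq_one_iff] at h1

end CfsgLib.PGLTwo
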